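import Cfsg.Agent.BrauerFeit.CentralQuot
import Cfsg.Agent.Blocks.Major
import Cfsg.Agent.Blocks.Forms
import Cfsg.Agent.Blocks.FirstMain

/-!
# Blocks with abelian defect group of small rank
-/

set_option autoImplicit false
set_option linter.unusedSectionVars false
set_option linter.style.haveILetI false

namespace CfsgLib.BrauerFeit

open Cfsg CfsgLib CfsgLib.Blocks CfsgLib.CharBasics CfsgLib.NilBlock Polynomial
open scoped ComplexConjugate

attribute [local instance] CfsgLib.Blocks.residueField CfsgLib.Blocks.residue_charP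

universe u

variable {G : Type u} [Group G] [Fintype G] {p : ℕ} {M : Ideal AlgInt}

noncomputable local instance instFintypeSubgroupAbelianBound (K : Subgroup G) : Fintype K := Fintype.ofFinite K

/-- The count from a lower bound for the nonzero values of the form of a major subsection. -/
theorem card_mul_le_of_value_ge (hM : IsPModular p M) {B : Set (IrrCharacter G)} {x : G}
    (hx : ∃ k : ℕ, orderOf x = p ^ k) {b : Set (IrrCharacter (cen x))} (hb : IsInducedBlock M (cen x) b B)
    (hdef : blockDefect p b = blockDefect p B) {ξ₀ : IrrCharacter (cen x)} (h₀ : ξ₀ ∈ b)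
    (hmin₀ : ∀ ρ ∈ b, degExp p ξ₀ ≤ degExp p ρ) (L : ℕ)
    (hval : ∀ v, intForm (memFinset b) (scaled p (degExp p ξ₀)) v v = 0 ∨
      (L : ℤ) ≤ intForm (memFinset b) (scaled p (degExp p ξ₀)) v v) :
    Nat.card B * L ≤ p ^ blockDefect p B * blockRank p b := by
  classical
  haveI : Fintype (IrrCharacter G) := @Fintype.ofFinite _ finite_irrCharacter
  haveI : Fintype (IrrCharacter (cen x)) := @Fintype.ofFinite _ finite_irrCharacter
  obtain ⟨ξ₁, h₁, hminξ, he₀⟩ := exists_min_degExp hM hb.1
  obtain ⟨χ₁, hχ₁, hmin₁, he₁⟩ := exists_min_degExp hM hb.2.1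
  have hB := hb.2.1
  have hh1 : blockHeight p B (χ₁ : G → ℂ) = 0 := by rw [blockHeight_eq he₁, Nat.sub_self]
  have hdef' : blockDefect p B = (Nat.card (cen x)).factorization p - degExp p ξ₀ := by
    rw [← hdef, blockDefect_eq he₀, le_antisymm (hmin₀ ξ₁ h₁) (hminξ ξ₀ h₀)]
  obtain ⟨k, hk⟩ := hx
  have hx : ∃ k : ℕ, orderOf x = p ^ k := ⟨k, hk⟩
  have hN : p ^ (k + 1) ≠ 0 := pow_ne_zero _ hM.1.ne_zero
  have hdvd : orderOf x ∣ p ^ (k + 1) := hk ▸ pow_dvd_pow _ (Nat.le_succ k)
  set d := blockDefect p B with hd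
  set ζ := zetaRoot (p ^ (k + 1)) with hζ
  have hz : ∀ j : ℕ, (ζ ^ j) ^ p ^ (k + 1) = 1 := fun j => by
    rw [← pow_mul, mul_comm, pow_mul, (zetaRoot_prim hN).pow_eq_one, one_pow]
  set m := fun (χ ψ : IrrCharacter G) => contribPoly p (p ^ (k + 1)) x b (degExp p ξ₀) χ ψ with hm
  set s := memFinset b with hs
  set A := fun (χ : IrrCharacter G) (ξ : IrrCharacter (cen x)) =>
    (shiftPoly x χ ξ).comp (X ^ (p ^ (k + 1) / orderOf x)) with hA
  have hsym : ∀ a a' : IrrCharacter (cen x), scaled p (degExp p ξ₀) a a' = scaled p (degExp p ξ₀) a' a := fun a a' => by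
    simp only [scaled]; rw [regInt_comm hM.1]
  set W := scaled p (degExp p ξ₀) (H := cen x) with hWdef
  have hpsd : ∀ v, 0 ≤ intForm s W v v := intForm_scaled_nonneg hM hmin₀
  have hform : ∀ (w : ℂ), w ^ p ^ (k + 1) = 1 → ∀ χ ψ, aeval w (m χ ψ) =
      ∑ a ∈ s, ∑ a' ∈ s, (W a a' : ℂ) * aeval w (A χ a) * conj (aeval w (A ψ a')) := by
    intro w hw χ ψ
    simp only [hm, hA, hWdef, scaled, hs, aeval_contrib_eq, aeval_comp, map_pow, aeval_X]
    refine Finset.sum_congr rfl fun a _ => Finset.sum_congr rfl fun a' _ => ?_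
    rw [conj_aeval, conj_eq_pow hN (by rw [← pow_mul, mul_comm, pow_mul, hw, one_pow])]
  set V := fun (χ : IrrCharacter G) (t i : ℕ) => fun a => cosetCoeff p k (A χ a) t i with hV
  set Tot := fun χ => ∑ t ∈ Finset.range (p ^ k), ∑ i ∈ Finset.range p, ∑ i' ∈ Finset.range p,
    intForm s W (V χ t i - V χ t i') (V χ t i - V χ t i') with hTot
  have htrace : ∀ χ, 2 * ∑ j ∈ coprimeResidues (p ^ (k + 1)), aeval (ζ ^ j) (m χ χ) =
      (p : ℂ) ^ k * (Tot χ : ℂ) := by
    intro χ
    rw [Finset.sum_congr rfl fun j _ => hform _ (hz j) χ χ]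
    exact sum_form_conjugates hM.1 hsym (A χ)
  have hφ : (coprimeResidues (p ^ (k + 1))).card = p ^ k * (p - 1) := by
    have : coprimeResidues (p ^ (k + 1)) = (Finset.range (p ^ (k + 1))).filter (p ^ (k + 1)).Coprime :=
      Finset.filter_congr fun j _ => Nat.coprime_comm
    rw [this, ← Nat.totient_eq_card_coprime, Nat.totient_prime_pow hM.1 (Nat.succ_pos k)]
    simp
  set S := memFinset B with hS
  have hcard : Nat.card B = S.card := by
    rw [hS, ← Fintype.card_coe, ← Nat.card_eq_fintype_card]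
    exact Nat.card_congr (Equiv.subtypeEquivRight fun _ => mem_memFinset.symm)
  have hTot0 : ∀ χ, 0 ≤ Tot χ := fun χ =>
    Finset.sum_nonneg fun _ _ => Finset.sum_nonneg fun _ _ => Finset.sum_nonneg fun _ _ => hpsd _
  have htot : ∑ χ ∈ S, Tot χ ≤ 2 * ((p : ℤ) - 1) * (p : ℤ) ^ d * blockRank p b := by
    refine le_of_le_of_eq (Finset.sum_le_sum_of_subset_of_nonneg (Finset.subset_univ S) fun χ _ _ => hTot0 χ) ?_
    have h : ∑ χ : IrrCharacter G, (2 * ∑ j ∈ coprimeResidues (p ^ (k + 1)), aeval (ζ ^ j) (m χ χ)) =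
        (p : ℂ) ^ k * (2 * ((p : ℂ) - 1) * (p : ℂ) ^ d * blockRank p b) := by
      rw [← Finset.mul_sum, Finset.sum_comm, Finset.sum_congr rfl (s₂ := coprimeResidues (p ^ (k + 1)))
        (g := fun _ => (p : ℂ) ^ d * (blockRank p b : ℂ)) fun j hj => by
          rw [hdef']; exact sum_contrib_diag hM hx hb.1 hN hdvd hmin₀ (Finset.mem_filter.1 hj).2,
        Finset.sum_const, hφ, nsmul_eq_mul, Nat.cast_mul, Nat.cast_sub hM.1.one_le]
      push_cast
      ring
    rw [Finset.sum_congr rfl fun χ _ => htrace χ, ← Finset.mul_sum] at h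
    exact_mod_cast mul_left_cancel₀ (pow_ne_zero k (Nat.cast_ne_zero.2 hM.1.ne_zero)) h
  have hrel : ∀ (u : ℕ → IrrCharacter (cen x) → ℤ) (i j l : ℕ),
      intForm s W (u l - u i) (u l - u i) = 0 → intForm s W (u l - u j) (u l - u j) = 0 →
        intForm s W (u i - u j) (u i - u j) = 0 := by
    intro u i j l h1 h2
    rw [show u i - u j = (u l - u j) - (u l - u i) by abel]
    generalize u l - u i = P₁ at *
    generalize u l - u j = P₂ at *
    rw [intForm_sub_left, intForm_sub_right, intForm_sub_right,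
      h1, h2, intForm_eq_zero_of_isotropic hsym hpsd h1, intForm_eq_zero_of_isotropic hsym hpsd h2]
    ring
  have hge : ∀ χ ∈ S, 2 * ((p : ℤ) - 1) * L ≤ Tot χ := by
    intro χ hχS
    have hχ := mem_memFinset.1 hχS
    obtain ⟨t, ht, i, hi, i', hi', hne⟩ : ∃ t < p ^ k, ∃ i < p, ∃ i' < p,
        intForm s W (V χ t i - V χ t i') (V χ t i - V χ t i') ≠ 0 := by
      by_contra hcon
      push Not at hcon
      have h0 : Tot χ = 0 := Finset.sum_eq_zero fun t ht => Finset.sum_eq_zero fun i hi => Finset.sum_eq_zero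
        fun i' hi' => hcon t (Finset.mem_range.1 ht) i (Finset.mem_range.1 hi) i' (Finset.mem_range.1 hi')
      have h1 := congrArg Complex.re (htrace χ)
      rw [h0, Int.cast_zero, mul_zero, Complex.zero_re, ← Nat.cast_ofNat, Complex.mul_re, Complex.natCast_re,
        Complex.natCast_im, zero_mul, sub_zero, Complex.re_sum] at h1
      have h2 : 0 < ∑ j ∈ coprimeResidues (p ^ (k + 1)), (p : ℝ) ^ d * (aeval (ζ ^ j) (m χ χ)).re := by
        refine Finset.sum_pos (fun j hj => ?_) (Finset.card_pos.1 (coprimeResidues_card_pos hN))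
        rw [hdef', hm, hζ, ← sum_normSq_contrib hM hx hb.1 hN hdvd hmin₀ (Finset.mem_filter.1 hj).2 χ]
        refine lt_of_lt_of_le ?_ (Finset.single_le_sum (fun _ _ => by positivity) (Finset.mem_univ χ₁))
        refine pow_pos (norm_pos_iff.2 (aeval_conjugate_ne_zero hN _ (Finset.mem_filter.1 hj).2 fun h0 =>
          major_not_mem hM hx hb (K := k + 1) hdvd h₀ hmin₀ hdef' hχ hχ₁ hh1 ?_)) 2
        rw [h0, zero_div]
        exact memLocalIdeal_zero hM
      rw [← Finset.mul_sum] at h2
      have h3 := pos_of_mul_pos_right h2 (by positivity)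
      norm_num at h1
      linarith
    refine le_trans ?_ (Finset.single_le_sum (f := fun t => ∑ i ∈ Finset.range p, ∑ i' ∈ Finset.range p,
      intForm s W (V χ t i - V χ t i') (V χ t i - V χ t i'))
      (fun _ _ => Finset.sum_nonneg fun _ _ => Finset.sum_nonneg fun _ _ => hpsd _) (Finset.mem_range.2 ht))
    have h := pair_sum_bound (fun i j => intForm s W (V χ t i - V χ t j) (V χ t i - V χ t j)) (fun _ _ => hpsd _)
      (fun a a' => by simp only [intForm_sub_left, intForm_sub_right]; ring) (m := (L : ℤ)) hi hi'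
      (fun h => hne (by subst h; simp [intForm])) (fun l _ => by
        by_cases h1 : intForm s W (V χ t l - V χ t i) (V χ t l - V χ t i) = 0
        · have h2 := (hval (V χ t l - V χ t i')).resolve_left fun h2 => hne (hrel (V χ t) i i' l h1 h2)
          have h3 := hpsd (V χ t l - V χ t i)
          linarith
        · have h2 := (hval (V χ t l - V χ t i)).resolve_left h1
          have h3 := hpsd (V χ t l - V χ t i')
          linarith)
    linarith
  have h1 := (Finset.sum_le_sum hge).trans htot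
  rw [Finset.sum_const, nsmul_eq_mul] at h1
  have hp1 : (0 : ℤ) < 2 * ((p : ℤ) - 1) := by have := hM.1.two_le; omega
  have h2 : ((S.card : ℤ) * L) * (2 * ((p : ℤ) - 1)) ≤ ((p : ℤ) ^ d * blockRank p b) * (2 * ((p : ℤ) - 1)) := by
    calc _ = (S.card : ℤ) * (2 * ((p : ℤ) - 1) * L) := by ring
      _ ≤ _ := h1
      _ = _ := by ring
  rw [hcard]
  exact_mod_cast le_of_mul_le_mul_right h2 hp1

/-- An abelian defect group and an element of it give a major subsection with an image of that group below. -/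
theorem exists_major_quot (hM : IsPModular p M) {B : Set (IrrCharacter G)} (hB : IsPBlock M B) {D : Subgroup G}
    (hD : IsDefectGroup p M B D) (hab : ∀ x ∈ D, ∀ y ∈ D, x * y = y * x) {x : G} (hxD : x ∈ D) :
    ∃ b : Set (IrrCharacter (cen x)), IsInducedBlock M (cen x) b B ∧ blockDefect p b = blockDefect p B ∧
      IsDefectGroup p M b (D.subgroupOf (cen x)) := by
  haveI := Fact.mk hM.1
  obtain ⟨c, hmax⟩ := exists_maximal_on_defect hM hB hD
  have hind := isInduced_belb hM hmax hB hxD
  have hbD := isDefectGroup_belb hM hmax hab hxD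
  refine ⟨_, hind, ?_, hbD⟩
  have hle : D ≤ cen x := fun d hd => Subgroup.mem_centralizer_singleton_iff.2 (hab d hd x hxD)
  have h1 := card_defectGroup hM hind.1 hbD
  rw [Nat.card_congr (Subgroup.subgroupOfEquivOfLe hle).toEquiv, card_defectGroup hM hB hD] at h1
  exact (Nat.pow_right_injective hM.1.two_le h1).symm

/-- The order of the image of a subgroup in the quotient by a subgroup of it. -/
theorem card_map_mk_mul {H : Type u} [Group H] {N D : Subgroup H} [N.Normal] (h : N ≤ D) :
    Nat.card (D.map (QuotientGroup.mk' N)) * Nat.card N = Nat.card D := by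
  set f := (QuotientGroup.mk' N).comp D.subtype with hf
  have hr : f.range = D.map (QuotientGroup.mk' N) := by rw [hf, MonoidHom.range_comp, D.range_subtype]
  have hker : f.ker = N.subgroupOf D := by
    rw [hf, ← MonoidHom.comap_ker, QuotientGroup.ker_mk']
    rfl
  rw [← hr, ← Subgroup.index_ker, hker, ← Nat.card_congr (Subgroup.subgroupOfEquivOfLe h).toEquiv, mul_comm,
    Subgroup.card_mul_index]

/-- A cyclic factor group of an abelian defect group bounds the number of members by the order of that group. -/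
theorem card_le_of_cyclic_factor (hM : IsPModular p M) {B : Set (IrrCharacter G)} (hB : IsPBlock M B)
    {D : Subgroup G} (hD : IsDefectGroup p M B D) (hab : ∀ x ∈ D, ∀ y ∈ D, x * y = y * x) {x w : G}
    (hxD : x ∈ D) (hwD : w ∈ D) (hgen : D ≤ Subgroup.zpowers x ⊔ Subgroup.zpowers w) :
    Nat.card B ≤ Nat.card D := by
  classical
  haveI := Fact.mk hM.1
  obtain ⟨b, hind, hdef, hbD⟩ := exists_major_quot hM hB hD hab hxD
  have hx := exists_orderOf_eq_of_mem (isPGroup_of_isDefectGroup hD) hxD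
  set y : cen x := ⟨x, Subgroup.mem_centralizer_singleton_iff.2 rfl⟩ with hy
  have hyc : y ∈ Subgroup.center (cen x) :=
    Subgroup.mem_center_iff.2 fun c => Subtype.ext (Subgroup.mem_centralizer_singleton_iff.1 c.2)
  have hyp : ∃ k : ℕ, orderOf y = p ^ k := by simpa [hy, Subgroup.orderOf_mk] using hx
  haveI := zpowers_normal_of_central hyc
  haveI : Fintype (cen x ⧸ Subgroup.zpowers y) := Fintype.ofFinite _
  obtain ⟨c, hcb, hsub, hcD⟩ := exists_contained_block hM (ZStar.isPGroup_zpowers hM.1 hyp) hind.1 hbD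
  set w' : cen x := ⟨w, Subgroup.mem_centralizer_singleton_iff.2 (hab w hwD x hxD)⟩ with hw'
  have hle : (D.subgroupOf (cen x)).map (QuotientGroup.mk' (Subgroup.zpowers y)) ≤
      Subgroup.zpowers (QuotientGroup.mk' (Subgroup.zpowers y) w') := by
    have h : D ≤ ((Subgroup.zpowers (QuotientGroup.mk' (Subgroup.zpowers y) w')).comap
        (QuotientGroup.mk' (Subgroup.zpowers y))).map (cen x).subtype :=
      hgen.trans (sup_le (Subgroup.zpowers_le.2 ⟨y, by
          rw [SetLike.mem_coe, Subgroup.mem_comap,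
            show QuotientGroup.mk' (Subgroup.zpowers y) y = 1 from
              (QuotientGroup.eq_one_iff y).2 (Subgroup.mem_zpowers y)]
          exact Subgroup.one_mem _, rfl⟩)
        (Subgroup.zpowers_le.2 ⟨w', Subgroup.mem_zpowers _, rfl⟩))
    refine Subgroup.map_le_iff_le_comap.2 fun z hz => ?_
    obtain ⟨z', hz', he⟩ := h (Subgroup.mem_subgroupOf.1 hz)
    exact (Subtype.ext he : z' = z) ▸ hz'
  have hcyc : IsCyclic ↥((D.subgroupOf (cen x)).map (QuotientGroup.mk' (Subgroup.zpowers y))) :=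
    isCyclic_of_injective (Subgroup.inclusion hle) (Subgroup.inclusion_injective hle)
  obtain ⟨ξ₀, h₀, hmin₀, -⟩ := exists_min_degExp hM hind.1
  obtain ⟨ψ₀, hψ₀, hminc, -⟩ := exists_min_degExp hM hcb
  have h := card_mul_le_of_value_ge hM hx hind hdef h₀ hmin₀ (blockRank p c) fun v => by
    obtain ⟨k, u, hu⟩ := exists_quot_value hM hyc hyp hind.1 hcb hsub hmin₀ hψ₀ hminc v
    have hp : (1 : ℤ) ≤ (p : ℤ) ^ k := one_le_pow₀ (by exact_mod_cast hM.1.one_le)
    rcases value_ge_of_cyclic hM hcb hcD hcyc hψ₀ hminc u with h | h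
    · exact Or.inl (by rw [hu, h, mul_zero])
    · refine Or.inr ?_
      rw [hu]
      exact h.trans (le_mul_of_one_le_left ((Int.natCast_nonneg _).trans h) hp)
  have h2 := h.trans (Nat.mul_le_mul_left _ (blockRank_le_quot hM hyc hyp hind.1 hcb hsub))
  rw [card_defectGroup hM hB hD]
  exact Nat.le_of_mul_le_mul_right h2 (blockRank_pos hM hcb)

/-- Three generators, one of which is large. -/
theorem card_le_of_three (hM : IsPModular p M) {B : Set (IrrCharacter G)} (hB : IsPBlock M B)
    {D : Subgroup G} (hD : IsDefectGroup p M B D) (hab : ∀ x ∈ D, ∀ y ∈ D, x * y = y * x) {x w z : G}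
    (hxD : x ∈ D) (hwD : w ∈ D) (hzD : z ∈ D)
    (hgen : D ≤ Subgroup.zpowers x ⊔ Subgroup.zpowers w ⊔ Subgroup.zpowers z) :
    Nat.card B * orderOf x ≤ Nat.card D ^ 2 := by
  classical
  haveI := Fact.mk hM.1
  obtain ⟨b, hind, hdef, hbD⟩ := exists_major_quot hM hB hD hab hxD
  have hx := exists_orderOf_eq_of_mem (isPGroup_of_isDefectGroup hD) hxD
  set y : cen x := ⟨x, Subgroup.mem_centralizer_singleton_iff.2 rfl⟩ with hy
  have hyc : y ∈ Subgroup.center (cen x) :=
    Subgroup.mem_center_iff.2 fun c => Subtype.ext (Subgroup.mem_centralizer_singleton_iff.1 c.2)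
  have hyp : ∃ k : ℕ, orderOf y = p ^ k := by simpa [hy, Subgroup.orderOf_mk] using hx
  haveI := zpowers_normal_of_central hyc
  haveI : Fintype (cen x ⧸ Subgroup.zpowers y) := Fintype.ofFinite _
  obtain ⟨c, hcb, hsub, hcD⟩ := exists_contained_block hM (ZStar.isPGroup_zpowers hM.1 hyp) hind.1 hbD
  set Db := (D.subgroupOf (cen x)).map (QuotientGroup.mk' (Subgroup.zpowers y)) with hDb
  set w' : cen x := ⟨w, Subgroup.mem_centralizer_singleton_iff.2 (hab w hwD x hxD)⟩ with hw'
  set z' : cen x := ⟨z, Subgroup.mem_centralizer_singleton_iff.2 (hab z hzD x hxD)⟩ with hz'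
  have habq : ∀ a ∈ Db, ∀ a' ∈ Db, a * a' = a' * a := by
    rintro _ ⟨a, ha, rfl⟩ _ ⟨a', ha', rfl⟩
    rw [← map_mul, ← map_mul, show a * a' = a' * a from Subtype.ext (hab _ ha _ ha')]
  have hle : Db ≤ Subgroup.zpowers (QuotientGroup.mk' (Subgroup.zpowers y) w') ⊔
      Subgroup.zpowers (QuotientGroup.mk' (Subgroup.zpowers y) z') := by
    have h : D ≤ ((Subgroup.zpowers (QuotientGroup.mk' (Subgroup.zpowers y) w') ⊔
        Subgroup.zpowers (QuotientGroup.mk' (Subgroup.zpowers y) z')).comap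
        (QuotientGroup.mk' (Subgroup.zpowers y))).map (cen x).subtype :=
      hgen.trans (sup_le (sup_le (Subgroup.zpowers_le.2 ⟨y, by
          rw [SetLike.mem_coe, Subgroup.mem_comap,
            show QuotientGroup.mk' (Subgroup.zpowers y) y = 1 from
              (QuotientGroup.eq_one_iff y).2 (Subgroup.mem_zpowers y)]
          exact Subgroup.one_mem _, rfl⟩)
        (Subgroup.zpowers_le.2 ⟨w', Subgroup.mem_sup_left (Subgroup.mem_zpowers _), rfl⟩))
        (Subgroup.zpowers_le.2 ⟨z', Subgroup.mem_sup_right (Subgroup.mem_zpowers _), rfl⟩))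
    refine Subgroup.map_le_iff_le_comap.2 fun a ha => ?_
    obtain ⟨a', ha', he⟩ := h (Subgroup.mem_subgroupOf.1 ha)
    exact (Subtype.ext he : a' = a) ▸ ha'
  have hc := card_le_of_cyclic_factor hM hcb hcD habq ⟨w', hwD, rfl⟩ ⟨z', hzD, rfl⟩ hle
  obtain ⟨ξ₀, h₀, hmin₀, -⟩ := exists_min_degExp hM hind.1
  have h := card_mul_le_of_value_ge hM hx hind hdef h₀ hmin₀ 1 fun v => by
    have := intForm_scaled_nonneg hM hmin₀ v
    omega
  rw [mul_one, ← card_defectGroup hM hB hD] at h
  haveI : Fintype c := Fintype.ofFinite _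
  have hl : blockRank p b ≤ Nat.card Db := by
    refine ((blockRank_le_quot hM hyc hyp hind.1 hcb hsub).trans (blockRank_le hM hcb)).trans ?_
    rw [← Nat.card_eq_fintype_card]
    exact hc
  have hDcard : Nat.card Db * orderOf x = Nat.card D := by
    have hle' : D ≤ cen x := fun d hd => Subgroup.mem_centralizer_singleton_iff.2 (hab d hd x hxD)
    rw [← Nat.card_congr (Subgroup.subgroupOfEquivOfLe hle').toEquiv,
      ← card_map_mk_mul (N := Subgroup.zpowers y) (D := D.subgroupOf (cen x)) (Subgroup.zpowers_le.2 hxD),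
      Nat.card_zpowers, show orderOf x = orderOf y from (Subgroup.orderOf_coe y)]
  calc Nat.card B * orderOf x ≤ Nat.card D * Nat.card Db * orderOf x :=
        Nat.mul_le_mul_right _ (h.trans (Nat.mul_le_mul_left _ hl))
    _ = Nat.card D ^ 2 := by rw [mul_assoc, hDcard, pow_two]

end CfsgLib.BrauerFeit
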