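import Cfsg.Agent.BrauerFeit.CyclicForm
import Cfsg.Agent.Blocks.CommQuot
import Cfsg.Agent.Blocks.BrauerChar.Span
import Cfsg.Agent.Blocks.BrauerChar.Decomp
import Cfsg.Agent.Blocks.QuotientDefect

/-!
# The regular parts of a block over a central `p`-element come from the quotient
-/

set_option autoImplicit false
set_option linter.unusedSectionVars false
set_option linter.style.haveILetI false

namespace CfsgLib.BrauerFeit

open Cfsg CfsgLib CfsgLib.Blocks CfsgLib.CharBasics
open scoped ComplexConjugate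

universe u

variable {H : Type u} [Group H] [Fintype H] {p : ℕ} {M : Ideal AlgInt} {y : H} {b : Set (IrrCharacter H)}

theorem zpowers_normal_of_central (hy : y ∈ Subgroup.center H) : (Subgroup.zpowers y).Normal :=
  ⟨fun w hw g => by
    rw [Subgroup.mem_center_iff.1 ((Subgroup.zpowers_le).2 hy hw) g, mul_inv_cancel_right]
    exact hw⟩

/-- A regular element is the only regular element of its coset. -/
theorem regular_lift_unique (hp : p.Prime) (hy : y ∈ Subgroup.center H) (hyp : ∃ k : ℕ, orderOf y = p ^ k)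
    [(Subgroup.zpowers y).Normal] {g g' : H} (hg : ¬ p ∣ orderOf g) (hg' : ¬ p ∣ orderOf g')
    (h : (g : H ⧸ Subgroup.zpowers y) = g') : g = g' := by
  have hw : g⁻¹ * g' ∈ Subgroup.zpowers y := QuotientGroup.eq.1 h
  obtain ⟨k, hk⟩ := hyp
  have hd : orderOf (g⁻¹ * g') ∣ p ^ k := by
    obtain ⟨i, hi⟩ := Subgroup.mem_zpowers_iff.1 hw
    rw [← hi, ← hk]
    exact orderOf_dvd_of_mem_zpowers ⟨i, rfl⟩
  have hwc : Commute g (g⁻¹ * g') := Subgroup.mem_center_iff.1 ((Subgroup.zpowers_le).2 hy hw) g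
  have hc : Commute g⁻¹ g' := by
    have := ((Commute.refl g).mul_right hwc).inv_left
    rwa [mul_inv_cancel_left] at this
  have hcop : (orderOf (g⁻¹ * g')).Coprime (p ^ k) := by
    refine Nat.Coprime.pow_right _ (hp.coprime_iff_not_dvd.2 fun hd' => ?_).symm
    have h2 := (hd'.trans hc.orderOf_mul_dvd_lcm).trans (Nat.lcm_dvd_mul _ _)
    rw [orderOf_inv] at h2
    rcases hp.dvd_mul.1 h2 with h3 | h3
    · exact hg h3
    · exact hg' h3
  exact inv_mul_eq_one.1 (orderOf_eq_one_iff.1 (Nat.eq_one_of_dvd_coprimes hcop dvd_rfl hd))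

/-- Summing over the regular elements of the quotient. -/
theorem sum_regular_quot (hp : p.Prime) (hy : y ∈ Subgroup.center H) (hyp : ∃ k : ℕ, orderOf y = p ^ k)
    [(Subgroup.zpowers y).Normal] [Fintype (H ⧸ Subgroup.zpowers y)] (F : H ⧸ Subgroup.zpowers y → ℂ) :
    ∑ g : H, (if p ∣ orderOf g then 0 else F g) =
      ∑ q : H ⧸ Subgroup.zpowers y, if p ∣ orderOf q then 0 else F q := by
  classical
  rw [Finset.sum_ite, Finset.sum_ite, Finset.sum_const_zero, Finset.sum_const_zero, zero_add, zero_add]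
  refine Finset.sum_bij (fun g _ => (g : H ⧸ Subgroup.zpowers y)) (fun g hg => ?_)
    (fun g hg g' hg' h => regular_lift_unique hp hy hyp (Finset.mem_filter.1 hg).2 (Finset.mem_filter.1 hg').2 h)
    (fun q hq => ?_) fun _ _ => rfl
  · exact Finset.mem_filter.2 ⟨Finset.mem_univ _, fun h =>
      (Finset.mem_filter.1 hg).2 (h.trans (orderOf_map_dvd (QuotientGroup.mk' _) g))⟩
  · obtain ⟨g, hg, hgq⟩ := exists_regular_lift hp (Finset.mem_filter.1 hq).2
    exact ⟨g, Finset.mem_filter.2 ⟨Finset.mem_univ _, hg⟩, hgq⟩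

/-- Only one block of the quotient inflates into the block. -/
theorem mem_of_inflChar_mem (hM : IsPModular p M) (hy : y ∈ Subgroup.center H) (hyp : ∃ k : ℕ, orderOf y = p ^ k)
    [(Subgroup.zpowers y).Normal] (hb : IsPBlock M b) {c : Set (IrrCharacter (H ⧸ Subgroup.zpowers y))}
    (hcb : IsPBlock M c) (hsub : InflatesInto (Subgroup.zpowers y) c b) {φ : IrrCharacter (H ⧸ Subgroup.zpowers y)}
    (hφ : inflChar φ ∈ b) : φ ∈ c := by
  classical
  haveI : Fintype (H ⧸ Subgroup.zpowers y) := Fintype.ofFinite _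
  obtain ⟨φ₀, hφ₀⟩ := IsPBlock.nonempty hM hcb
  let z : MonoidAlgebra ℂ H := ofFun fun g => if p ∣ orderOf g then 0 else blockCoeff c (g : H ⧸ Subgroup.zpowers y)
  have hzc : IsClassElt z := by
    intro g h
    have e : orderOf (h * g * h⁻¹) = orderOf g :=
      orderOf_injective (MulAut.conj h).toMonoidHom (MulAut.conj h).injective g
    have e2 : blockCoeff c ((h * g * h⁻¹ : H) : H ⧸ Subgroup.zpowers y) =
        blockCoeff c (g : H ⧸ Subgroup.zpowers y) := by
      rw [← coeff_blockElt, ← coeff_blockElt]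
      exact isClassElt_blockElt c (g : H ⧸ Subgroup.zpowers y) (h : H ⧸ Subgroup.zpowers y)
    simp only [z, coeff_ofFun, e, e2]
  have hzi : IsIntegralElt M z := fun g => by
    simp only [z, coeff_ofFun]
    split_ifs
    · exact memLocalRing_zero hM
    · exact memLocalRing_blockCoeff hM hcb _
  have hω : ∀ φ : IrrCharacter (H ⧸ Subgroup.zpowers y),
      omega (inflChar φ : H → ℂ) z = if φ ∈ c then 1 else 0 := by
    intro φ
    rw [← omega_blockElt c φ, inflChar_coe]
    simp only [omega, z, coeff_ofFun, coeff_blockElt, Function.comp_apply, QuotientGroup.mk_one, ite_mul, zero_mul]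
    congr 1
    rw [sum_regular_quot hM.1 hy hyp fun q => blockCoeff c q * (φ : H ⧸ Subgroup.zpowers y → ℂ) q]
    refine Finset.sum_congr rfl fun q _ => ?_
    split_ifs with hq
    · rw [blockCoeff_eq_zero hM hcb hq, zero_mul]
    · rfl
  by_contra hn
  have h := omega_sub_mem_of_sameBlock hM ((IsPBlock.mem_iff hM hb hφ).1 (hsub φ₀ hφ₀)) hzc hzi
  rw [hω, hω, if_neg hn, if_pos hφ₀] at h
  exact not_memLocalIdeal_one hM (by simpa using memLocalIdeal_neg h)

theorem inflChar_injective {N : Subgroup H} [N.Normal] : Function.Injective (inflChar (N := N)) := by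
  intro φ φ' h
  refine Subtype.ext (funext fun q => ?_)
  obtain ⟨g, rfl⟩ := QuotientGroup.mk_surjective q
  have := congrArg (fun η : IrrCharacter H => (η : H → ℂ) g) h
  simpa [inflChar_coe] using this

/-- Regular parts of members are integral combinations of those of the block of the quotient. -/
theorem exists_quot_expansion (hM : IsPModular p M) (hy : y ∈ Subgroup.center H)
    (hyp : ∃ k : ℕ, orderOf y = p ^ k) [(Subgroup.zpowers y).Normal] (hb : IsPBlock M b)
    {c : Set (IrrCharacter (H ⧸ Subgroup.zpowers y))} (hcb : IsPBlock M c)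
    (hsub : InflatesInto (Subgroup.zpowers y) c b) {ξ : IrrCharacter H} (hξ : ξ ∈ b) :
    ∃ n : IrrCharacter (H ⧸ Subgroup.zpowers y) → ℤ, ∀ g : H, ¬ p ∣ orderOf g →
      (ξ : H → ℂ) g = ∑ φ ∈ memFinset c, (n φ : ℂ) * (φ : H ⧸ Subgroup.zpowers y → ℂ) g := by
  classical
  haveI : Fintype (IrrCharacter H) := @Fintype.ofFinite _ finite_irrCharacter
  haveI : Fintype (H ⧸ Subgroup.zpowers y) := Fintype.ofFinite _
  haveI : Fintype (IrrCharacter (H ⧸ Subgroup.zpowers y)) := @Fintype.ofFinite _ finite_irrCharacter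
  obtain ⟨e, he1, he0, her⟩ := BrauerChar.exists_exponent hM H
  set F : H → ℂ := fun g => (ξ : H → ℂ) (g ^ e) with hF
  have hgen : IsGeneralizedCharacter H F := by
    have e1 : F = ∑ ψ : BrauerChar.IBr hM H, BrauerChar.dec hM ξ ψ • fun g => (ψ : H → ℂ) (g ^ e) := by
      funext g
      simp only [hF, Finset.sum_apply, Pi.smul_apply]
      simp only [nsmul_eq_mul]
      exact BrauerChar.apply_eq_sum_dec hM ξ (her g)
    rw [e1]
    exact BrauerInd.mem_genChar.1 (sum_mem fun ψ _ => nsmul_mem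
      (BrauerInd.mem_genChar.2 (BrauerChar.iBr_pow_isGenChar hM ψ he1 he0 her)) _)
  have hcf : IsClassFunction H F := fun g x => by
    show (ξ : H → ℂ) ((x * g * x⁻¹) ^ e) = (ξ : H → ℂ) (g ^ e)
    rw [conj_pow, isClassFunction (isCharacter_of_irr ξ.2)]
  choose m hm using fun η : IrrCharacter H => Exceptional.gen_inner_int hgen η
  have hex : ∀ g : H, ¬ p ∣ orderOf g → (ξ : H → ℂ) g = ∑ η : IrrCharacter H, (m η : ℂ) * (η : H → ℂ) g := by
    intro g hg
    have h := congrFun (classFun_expand hcf) g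
    simp only [Finset.sum_apply, Pi.smul_apply, smul_eq_mul, hm] at h
    simp only [hF, he1 g hg] at h
    exact h
  have hye : y ^ e = 1 := he0 y hyp
  have hy1 : ∀ η : IrrCharacter H, m η ≠ 0 → (η : H → ℂ) y = (η : H → ℂ) 1 := by
    intro η hη
    by_contra hne
    refine hη ?_
    have hs : ∑ g : H, F g * conj ((η : H → ℂ) g) = ∑ g : H, F g * conj ((η : H → ℂ) (y * g)) := by
      rw [← Fintype.sum_equiv (Equiv.mulLeft y) (fun g => F (y * g) * conj ((η : H → ℂ) (y * g))) _ fun g => rfl]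
      refine Finset.sum_congr rfl fun g _ => ?_
      congr 1
      simp only [hF]
      rw [(show Commute y g from (Subgroup.mem_center_iff.1 hy g).symm).mul_pow, hye, one_mul]
    have h1 : conj ((η : H → ℂ) 1) * ∑ g : H, F g * conj ((η : H → ℂ) g) =
        conj ((η : H → ℂ) y) * ∑ g : H, F g * conj ((η : H → ℂ) g) := by
      conv_lhs => rw [hs]
      rw [Finset.mul_sum, Finset.mul_sum]
      refine Finset.sum_congr rfl fun g _ => ?_
      rw [mul_left_comm, ← map_mul, center_mul η.2 hy g, map_mul]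
      ring
    have h2 : ∑ g : H, F g * conj ((η : H → ℂ) g) = 0 :=
      (mul_eq_mul_right_iff.1 h1).resolve_left fun h => hne (star_injective h).symm
    have h3 := hm η
    rw [classInner_eq, h2, mul_zero] at h3
    exact_mod_cast h3.symm
  -- the part outside the block
  set R : H → ℂ := fun g => if p ∣ orderOf g then 0 else
    ∑ η ∈ Finset.univ.filter (fun η => η ∉ b), (m η : ℂ) * (η : H → ℂ) g with hR
  have hR0 : ∀ g, R g = 0 := by
    have hzero : ∑ g : H, R g * conj (R g) = 0 := by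
      have e2 : ∀ g, R g * conj (R g) = ∑ η' ∈ Finset.univ.filter (fun η => η ∉ b), (m η' : ℂ) *
          ((if p ∣ orderOf g then 0 else (ξ : H → ℂ) g * conj ((η' : H → ℂ) g)) -
            ∑ η ∈ Finset.univ.filter (fun η => η ∈ b), (m η : ℂ) *
              (if p ∣ orderOf g then 0 else (η : H → ℂ) g * conj ((η' : H → ℂ) g))) := by
        intro g
        simp only [hR]
        split_ifs with hg
        · simp
        · have hx : (∑ η ∈ Finset.univ.filter (fun η => η ∉ b), (m η : ℂ) * (η : H → ℂ) g) =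
              (ξ : H → ℂ) g - ∑ η ∈ Finset.univ.filter (fun η => η ∈ b), (m η : ℂ) * (η : H → ℂ) g := by
            rw [hex g hg, ← Finset.sum_filter_add_sum_filter_not Finset.univ (fun η => η ∈ b),
              add_sub_cancel_left]
          rw [map_sum, Finset.mul_sum]
          refine Finset.sum_congr rfl fun η' _ => ?_
          rw [map_mul, map_intCast, hx, mul_left_comm, sub_mul, Finset.sum_mul]
          simp only [mul_assoc]
      rw [Finset.sum_congr rfl fun g _ => e2 g, Finset.sum_comm]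
      refine Finset.sum_eq_zero fun η' hη' => ?_
      have hη'b := (Finset.mem_filter.1 hη').2
      have hz : ∀ η ∈ b, regSum p (η : H → ℂ) (η' : H → ℂ) = 0 := fun η hη =>
        NilBlock.regSum_eq_zero hM hb (isPBlock_blockOf M η')
          (fun h => hη'b (h ▸ mem_blockOf_self hM η')) hη (mem_blockOf_self hM η')
      rw [← Finset.mul_sum, Finset.sum_sub_distrib, Finset.sum_comm, Finset.sum_eq_zero (s := Finset.univ.filter _)
        fun η hη => by rw [← Finset.mul_sum, ← regSum, hz η (Finset.mem_filter.1 hη).2, mul_zero],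
        ← regSum, hz ξ hξ, sub_zero, mul_zero]
    intro g
    simp only [Complex.mul_conj'] at hzero
    rw [← Complex.ofReal_zero] at hzero
    simp only [← Complex.ofReal_pow, ← Complex.ofReal_sum, Complex.ofReal_inj] at hzero
    have := (Finset.sum_eq_zero_iff_of_nonneg fun g _ => sq_nonneg ‖R g‖).1 hzero g (Finset.mem_univ g)
    simpa using this
  refine ⟨fun φ => m (inflChar φ), fun g hg => ?_⟩
  have h := hR0 g
  simp only [hR, if_neg hg] at h
  rw [hex g hg, ← Finset.sum_filter_add_sum_filter_not Finset.univ (fun η => η ∈ b), h, add_zero]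
  symm
  refine Finset.sum_bij_ne_zero (fun φ _ _ => inflChar φ)
    (fun φ hφ _ => Finset.mem_filter.2 ⟨Finset.mem_univ _, hsub φ (mem_memFinset.1 hφ)⟩)
    (fun _ _ _ _ _ _ h => inflChar_injective h) (fun η hη hne => ?_) fun φ _ _ => by rw [inflChar_coe]; rfl
  have htriv := hy1 η fun h0 => hne (by rw [h0, Int.cast_zero, zero_mul])
  obtain ⟨φ, hφ⟩ := exists_quotient_irr η (Subgroup.zpowers y) fun x hx => by
    obtain ⟨k, rfl⟩ := mem_powers_iff_mem_zpowers.2 hx
    clear hx
    beta_reduce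
    induction k with
    | zero => simp
    | succ k ih =>
      have h := center_mul η.2 hy (y ^ k)
      rw [← pow_succ', htriv, ih] at h
      exact mul_left_cancel₀ (apply_one_ne_zero η.2) h
  have hη' : inflChar φ = η := Subtype.ext (funext hφ)
  subst hη'
  exact ⟨φ, mem_memFinset.2 (mem_of_inflChar_mem hM hy hyp hb hcb hsub (Finset.mem_filter.1 hη).2),
    by rwa [inflChar_coe] at hne, rfl⟩

/-- The number of modular characters does not drop. -/
theorem blockRank_le_quot (hM : IsPModular p M) (hy : y ∈ Subgroup.center H) (hyp : ∃ k : ℕ, orderOf y = p ^ k)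
    [(Subgroup.zpowers y).Normal] (hb : IsPBlock M b) {c : Set (IrrCharacter (H ⧸ Subgroup.zpowers y))}
    (hcb : IsPBlock M c) (hsub : InflatesInto (Subgroup.zpowers y) c b) : blockRank p b ≤ blockRank p c := by
  classical
  haveI : Fintype (H ⧸ Subgroup.zpowers y) := Fintype.ofFinite _
  haveI : Fintype (IrrCharacter (H ⧸ Subgroup.zpowers y)) := @Fintype.ofFinite _ finite_irrCharacter
  let L : (H ⧸ Subgroup.zpowers y → ℂ) →ₗ[ℂ] (H → ℂ) :=
    { toFun := fun f g => if p ∣ orderOf g then 0 else f g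
      map_add' := fun f f' => funext fun g => by simp only [Pi.add_apply]; split_ifs <;> simp
      map_smul' := fun a f => funext fun g => by simp only [Pi.smul_apply, RingHom.id_apply]; split_ifs <;> simp }
  unfold blockRank
  refine le_trans (Submodule.finrank_mono ?_) (Submodule.finrank_map_le L _)
  rw [Submodule.span_le]
  rintro _ ⟨ξ, hξ, rfl⟩
  obtain ⟨n, hn⟩ := exists_quot_expansion hM hy hyp hb hcb hsub hξ
  refine ⟨∑ φ ∈ memFinset c, (n φ : ℂ) • pRegularPart p (φ : H ⧸ Subgroup.zpowers y → ℂ),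
    Submodule.sum_mem _ fun φ hφ => Submodule.smul_mem _ _
      (Submodule.subset_span ⟨φ, mem_memFinset.1 hφ, rfl⟩), funext fun g => ?_⟩
  show (if p ∣ orderOf g then 0 else _) = pRegularPart p (ξ : H → ℂ) g
  rw [pRegularPart_apply]
  split_ifs with hg
  · rfl
  · rw [hn g hg, Finset.sum_apply]
    refine Finset.sum_congr rfl fun φ _ => ?_
    rw [Pi.smul_apply, smul_eq_mul, pRegularPart_apply,
      if_neg fun h => hg (h.trans (orderOf_map_dvd (QuotientGroup.mk' _) g))]

/-- The values of the form are values of the form of the quotient, scaled up. -/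
theorem exists_quot_value (hM : IsPModular p M) (hy : y ∈ Subgroup.center H) (hyp : ∃ k : ℕ, orderOf y = p ^ k)
    [(Subgroup.zpowers y).Normal] [Fintype (H ⧸ Subgroup.zpowers y)] (hb : IsPBlock M b)
    {c : Set (IrrCharacter (H ⧸ Subgroup.zpowers y))}
    (hcb : IsPBlock M c) (hsub : InflatesInto (Subgroup.zpowers y) c b) {ξ₀ : IrrCharacter H}
    (hmin : ∀ ρ ∈ b, degExp p ξ₀ ≤ degExp p ρ) {ψ₀ : IrrCharacter (H ⧸ Subgroup.zpowers y)} (hψ₀ : ψ₀ ∈ c)
    (hminc : ∀ ρ ∈ c, degExp p ψ₀ ≤ degExp p ρ) (v : IrrCharacter H → ℤ) :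
    ∃ (k : ℕ) (w : IrrCharacter (H ⧸ Subgroup.zpowers y) → ℤ),
      intForm (memFinset b) (scaled p (degExp p ξ₀)) v v =
        (p : ℤ) ^ k * intForm (memFinset c) (scaled p (degExp p ψ₀)) w w := by
  classical
  have hexp : ∀ ξ : IrrCharacter H, ∃ n : IrrCharacter (H ⧸ Subgroup.zpowers y) → ℤ, ξ ∈ b → ∀ g : H,
      ¬ p ∣ orderOf g → (ξ : H → ℂ) g = ∑ φ ∈ memFinset c, (n φ : ℂ) * (φ : H ⧸ Subgroup.zpowers y → ℂ) g := by
    intro ξ
    by_cases hξ : ξ ∈ b
    · obtain ⟨n, hn⟩ := exists_quot_expansion hM hy hyp hb hcb hsub hξ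
      exact ⟨n, fun _ => hn⟩
    · exact ⟨0, fun h => absurd h hξ⟩
  choose n hn using hexp
  set w := fun φ => ∑ ξ ∈ memFinset b, v ξ * n ξ φ with hw
  have hv : degExp p ξ₀ ≤ degExp p ψ₀ := by
    have h := hmin _ (hsub ψ₀ hψ₀)
    have e : degExp p (inflChar ψ₀) = degExp p ψ₀ := by
      simp [degExp, charDegree, inflChar_coe, QuotientGroup.mk_one]
    rwa [e] at h
  refine ⟨degExp p ψ₀ - degExp p ξ₀, w, ?_⟩
  obtain ⟨j, hj⟩ := hyp
  have hm : Nat.card H / p ^ (Nat.card H).factorization p =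
      Nat.card (H ⧸ Subgroup.zpowers y) / p ^ (Nat.card (H ⧸ Subgroup.zpowers y)).factorization p := by
    have h1 : Nat.card H = Nat.card (H ⧸ Subgroup.zpowers y) * p ^ j := by
      rw [← hj, ← Nat.card_zpowers]
      exact Subgroup.card_eq_card_quotient_mul_card_subgroup _
    rw [h1, Nat.factorization_mul Nat.card_pos.ne' (pow_ne_zero _ hM.1.ne_zero), Finsupp.add_apply,
      hM.1.factorization_pow, Finsupp.single_eq_same, pow_add, Nat.mul_div_mul_right _ _ (pow_pos hM.1.pos _)]
  have h1 := intForm_eq_sum hM hmin v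
  have h2 := intForm_eq_sum hM hminc w
  have hpt : ∀ g : H, ¬ p ∣ orderOf g → ∑ a ∈ memFinset b, (v a : ℂ) * (a : H → ℂ) g =
      ∑ φ ∈ memFinset c, (w φ : ℂ) * (φ : H ⧸ Subgroup.zpowers y → ℂ) g := by
    intro g hg
    simp only [hw, Int.cast_sum, Int.cast_mul, Finset.sum_mul]
    rw [Finset.sum_comm]
    refine Finset.sum_congr rfl fun ξ hξ => ?_
    rw [hn ξ (mem_memFinset.1 hξ) g hg, Finset.mul_sum]
    exact Finset.sum_congr rfl fun φ _ => by ring
  rw [← sum_regular_quot hM.1 hy ⟨j, hj⟩ (fun q =>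
      (∑ a ∈ memFinset c, (w a : ℂ) * (a : H ⧸ Subgroup.zpowers y → ℂ) q) *
        conj (∑ a ∈ memFinset c, (w a : ℂ) * (a : H ⧸ Subgroup.zpowers y → ℂ) q)),
    Finset.sum_congr rfl fun g _ => (show _ = if p ∣ orderOf g then 0 else
      (∑ a ∈ memFinset b, (v a : ℂ) * (a : H → ℂ) g) * conj (∑ a ∈ memFinset b, (v a : ℂ) * (a : H → ℂ) g) from by
      split_ifs with hg
      · rfl
      · rw [hpt g hg]), ← h1, ← hm] at h2
  have h3 : intForm (memFinset c) (scaled p (degExp p ψ₀)) w w * (p : ℤ) ^ degExp p ψ₀ *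
      ((Nat.card H / p ^ (Nat.card H).factorization p : ℕ) : ℤ) =
        intForm (memFinset b) (scaled p (degExp p ξ₀)) v v * (p : ℤ) ^ degExp p ξ₀ *
          ((Nat.card H / p ^ (Nat.card H).factorization p : ℕ) : ℤ) := Int.cast_injective h2
  have hm0 : ((Nat.card H / p ^ (Nat.card H).factorization p : ℕ) : ℤ) ≠ 0 := by
    exact_mod_cast (Nat.ordCompl_pos p Nat.card_pos.ne').ne'
  have h4 := mul_right_cancel₀ hm0 h3
  have hpow : (p : ℤ) ^ degExp p ψ₀ = (p : ℤ) ^ (degExp p ψ₀ - degExp p ξ₀) * (p : ℤ) ^ degExp p ξ₀ := by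
    rw [← pow_add, Nat.sub_add_cancel hv]
  rw [hpow, ← mul_assoc] at h4
  rw [mul_comm ((p : ℤ) ^ (degExp p ψ₀ - degExp p ξ₀))]
  exact (mul_right_cancel₀ (b := (p : ℤ) ^ degExp p ξ₀)
    (pow_ne_zero _ (Int.natCast_ne_zero.2 hM.1.ne_zero)) h4).symm

end CfsgLib.BrauerFeit
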