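import Cfsg.Agent.BrauerFeit.FreeCore
import Cfsg.Agent.BrauerFeit.Lattice
import Cfsg.Agent.BrauerFeit.Central
import Cfsg.Agent.Blocks.CyclicNilpotent
import Cfsg.Agent.Blocks.Forms

/-!
# The form of a block with cyclic defect group

Its values are zero or at least the number of modular characters.
-/

set_option autoImplicit false
set_option linter.unusedSectionVars false
set_option linter.style.haveILetI false

namespace CfsgLib.BrauerFeit

open Cfsg CfsgLib CfsgLib.Blocks CfsgLib.CharBasics CfsgLib.PairAlg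
open scoped ComplexConjugate

attribute [local instance] CfsgLib.Blocks.residueField CfsgLib.Blocks.residue_charP

universe u

variable {H : Type u} [Group H] [Fintype H] {p : ℕ} {M : Ideal AlgInt} {b : Set (IrrCharacter H)}
  {ξ₀ : IrrCharacter H}

noncomputable local instance instFintypeSubgroupCyclicForm (K : Subgroup H) : Fintype K := Fintype.ofFinite K

/-- The form is the square norm on the regular elements. -/
theorem intForm_eq_sum (hM : IsPModular p M) (hmin : ∀ ρ ∈ b, degExp p ξ₀ ≤ degExp p ρ) (v : IrrCharacter H → ℤ) :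
    ((intForm (memFinset b) (scaled p (degExp p ξ₀)) v v * (p : ℤ) ^ degExp p ξ₀ *
        ((Nat.card H / p ^ (Nat.card H).factorization p : ℕ) : ℤ) : ℤ) : ℂ) =
      ∑ g : H, if p ∣ orderOf g then 0 else
        (∑ a ∈ memFinset b, (v a : ℂ) * (a : H → ℂ) g) * conj (∑ a ∈ memFinset b, (v a : ℂ) * (a : H → ℂ) g) := by
  classical
  have h2 : ∀ g : H, (if p ∣ orderOf g then 0 else
      (∑ a ∈ memFinset b, (v a : ℂ) * (a : H → ℂ) g) * conj (∑ a ∈ memFinset b, (v a : ℂ) * (a : H → ℂ) g)) =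
      ∑ a ∈ memFinset b, ∑ a' ∈ memFinset b, (v a : ℂ) * (v a' : ℂ) *
        (if p ∣ orderOf g then 0 else (a : H → ℂ) g * conj ((a' : H → ℂ) g)) := by
    intro g
    split_ifs
    · simp
    · simp only [map_sum, map_mul, map_intCast, Finset.sum_mul_sum]
      exact Finset.sum_congr rfl fun a _ => Finset.sum_congr rfl fun a' _ => by ring
  rw [Finset.sum_congr rfl fun g _ => h2 g, Finset.sum_comm, intForm, Finset.sum_mul, Finset.sum_mul,
    Int.cast_sum]
  refine Finset.sum_congr rfl fun a ha => ?_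
  rw [Finset.sum_comm, Finset.sum_mul, Finset.sum_mul, Int.cast_sum]
  refine Finset.sum_congr rfl fun a' _ => ?_
  rw [← Finset.mul_sum, ← regSum, regSum_eq_regInt hM.1 (isCharacter_of_irr a.2) (isCharacter_of_irr a'.2),
    ← pow_mul_scaled hM hmin (mem_memFinset.1 ha) a']
  generalize Nat.card H / p ^ (Nat.card H).factorization p = m
  push_cast
  ring

theorem intForm_scaled_nonneg (hM : IsPModular p M) (hmin : ∀ ρ ∈ b, degExp p ξ₀ ≤ degExp p ρ)
    (v : IrrCharacter H → ℤ) : 0 ≤ intForm (memFinset b) (scaled p (degExp p ξ₀)) v v := by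
  have h := congrArg Complex.re (intForm_eq_sum hM hmin v)
  rw [Complex.intCast_re, Complex.re_sum] at h
  have h2 : (0 : ℝ) ≤ ((intForm (memFinset b) (scaled p (degExp p ξ₀)) v v * (p : ℤ) ^ degExp p ξ₀ *
      ((Nat.card H / p ^ (Nat.card H).factorization p : ℕ) : ℤ) : ℤ) : ℝ) := by
    rw [h]
    refine Finset.sum_nonneg fun g _ => ?_
    split_ifs
    · exact le_refl _
    · rw [Complex.mul_conj]; exact Complex.normSq_nonneg _
  have h3 : 0 ≤ intForm (memFinset b) (scaled p (degExp p ξ₀)) v v * (p : ℤ) ^ degExp p ξ₀ *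
      ((Nat.card H / p ^ (Nat.card H).factorization p : ℕ) : ℤ) := by exact_mod_cast h2
  exact nonneg_of_mul_nonneg_left (nonneg_of_mul_nonneg_left h3
    (by exact_mod_cast Nat.ordCompl_pos p Nat.card_pos.ne')) (pow_pos (by exact_mod_cast hM.1.pos) _)

theorem classInner_regularPart_scaled (hM : IsPModular p M) (hmin : ∀ ρ ∈ b, degExp p ξ₀ ≤ degExp p ρ) {n : ℕ}
    (hn : (Nat.card H).factorization p = degExp p ξ₀ + n) {ξ : IrrCharacter H} (hξ : ξ ∈ b) (η : IrrCharacter H) :
    classInner (pRegularPart p (ξ : H → ℂ)) (η : H → ℂ) = (scaled p (degExp p ξ₀) ξ η : ℂ) / (p : ℂ) ^ n := by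
  rw [classInner_regularPart_eq hM.1, hn, ← pow_mul_scaled hM hmin hξ η, pow_add]
  have hp0 : (p : ℂ) ≠ 0 := Nat.cast_ne_zero.2 hM.1.ne_zero
  push_cast
  field_simp

/-- A block of cyclic defect: the form is zero or at least the number of modular characters. -/
theorem value_ge_of_cyclic (hM : IsPModular p M) (hb : IsPBlock M b) {D : Subgroup H}
    (hD : IsDefectGroup p M b D) (hcyc : IsCyclic D) (h₀ : ξ₀ ∈ b)
    (hmin : ∀ ρ ∈ b, degExp p ξ₀ ≤ degExp p ρ) (v : IrrCharacter H → ℤ) :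
    intForm (memFinset b) (scaled p (degExp p ξ₀)) v v = 0 ∨
      (blockRank p b : ℤ) ≤ intForm (memFinset b) (scaled p (degExp p ξ₀)) v v := by
  classical
  haveI := Fact.mk hM.1
  haveI : Fintype (IrrCharacter H) := @Fintype.ofFinite _ finite_irrCharacter
  haveI : Fintype b := Fintype.ofFinite _
  by_cases hl1 : blockRank p b ≤ 1
  · have := intForm_scaled_nonneg hM hmin v
    omega
  obtain ⟨ξ₁, h₁, hmin₁, he₁⟩ := exists_min_degExp hM hb
  set n := blockDefect p b with hndef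
  have hn : (Nat.card H).factorization p = degExp p ξ₀ + n := by
    have := blockDefect_eq he₁
    have := degExp_le hM.1 ξ₁
    have := hmin₁ ξ₀ h₀
    have := hmin ξ₁ h₁
    omega
  have hn0 : n ≠ 0 := fun h0 => hl1 (by
    haveI : Subsingleton b := ⟨fun a a' => Subtype.ext (subsingleton_of_defect_zero hM hb h0 a.2 a'.2)⟩
    refine (blockRank_le hM hb).trans ?_
    rw [← Nat.card_eq_fintype_card]
    exact Finite.card_le_one_iff_subsingleton.2 inferInstance)
  have hDcard : Nat.card D = p ^ n := card_defectGroup hM hb hD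
  have hD1 : D ≠ ⊥ := fun h => by
    rw [h, Subgroup.card_bot] at hDcard
    exact hn0 (by simpa using (Nat.pow_eq_one.1 hDcard.symm).resolve_left hM.1.ne_one)
  have hab : ∀ x ∈ D, ∀ y ∈ D, x * y = y * x := fun x hx y hy => by
    letI := hcyc.commGroup
    exact congrArg Subtype.val (mul_comm (⟨x, hx⟩ : D) ⟨y, hy⟩)
  obtain ⟨c, hmax⟩ := exists_maximal_on_defect hM hb hD
  have hc := isInducedBlock_of_pairOf hM hmax.1
  set T := stab D (bc hM D c) with hT
  have hTmem : ∀ z : H, z ∈ T ↔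
      z ∈ Subgroup.normalizer (D : Set H) ∧ StabilizesBlock (Subgroup.centralizer (D : Set H)) c z :=
    fun z => ⟨fun h => ⟨h.1, (stabilizesBlock_bc_iff hM hc.1 h.1).2 h.2⟩,
      fun h => ⟨h.1, (stabilizesBlock_bc_iff hM hc.1 h.1).1 h.2⟩⟩
  haveI : ((Subgroup.centralizer (D : Set H)).subgroupOf T).Normal :=
    Subgroup.normal_subgroupOf_of_le_normalizer fun w hw => le_normalizer_centralizer D hw.1
  obtain ⟨-, hdvd, hfree⟩ := Cfsg.Agent.S4633.result p M hM b hb D hD hD1 hcyc c hc T hTmem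
  set e := (Subgroup.centralizer (D : Set H)).relIndex T with he
  have hep : ¬ p ∣ e := fun h => by
    have := Nat.le_of_dvd (by have := hM.1.two_le; omega) (h.trans hdvd)
    have := hM.1.two_le
    omega
  set S := scaled p (degExp p ξ₀) (H := H) with hS
  have hminor : ∀ ξ ∈ b, ∀ η : IrrCharacter H, ((p ^ n : ℕ) : ℤ) ∣ S ξ η * S ξ₀ ξ₀ - S ξ ξ₀ * S ξ₀ η := by
    intro ξ hξ η
    have h := memLocalRing_minor hM hmax hb hab hfree hD hc (ψ := η) hξ h₀
    simp only [classInner_regularPart_scaled hM hmin hn hξ, classInner_regularPart_scaled hM hmin hn h₀, hDcard,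
      ← hT, ← he, ← hS] at h
    have h2 := pow_dvd_of_memLocalRing hM n ((e : ℤ) ^ 2 * (S ξ η * S ξ₀ ξ₀ - S ξ ξ₀ * S ξ₀ η)) (by
      convert h using 1
      have hp0 : (p : ℂ) ≠ 0 := Nat.cast_ne_zero.2 hM.1.ne_zero
      push_cast
      field_simp)
    push_cast
    exact ((IsCoprime.pow (Int.isCoprime_iff_nat_coprime.2
      (by simpa using (hM.1.coprime_iff_not_dvd.2 hep))))).dvd_of_dvd_mul_left h2
  have hunit : ¬ (p : ℤ) ∣ S ξ₀ ξ₀ := fun h => regInt_self_not_dvd hM hb h₀ hmin (by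
    rw [pow_succ, ← pow_mul_scaled hM hmin h₀ ξ₀]
    exact mul_dvd_mul_left _ h)
  have hsym : ∀ ξ η, S ξ η = S η ξ := fun ξ η => by simp only [hS, scaled]; rw [regInt_comm hM.1]
  have hp0 : (p : ℤ) ≠ 0 := Int.natCast_ne_zero.2 hM.1.ne_zero
  have hproj : ∀ ξ ∈ b, ∀ η : IrrCharacter H,
      ∑ ζ ∈ memFinset b, S ξ ζ * S ζ η = ((p ^ n : ℕ) : ℤ) * S ξ η := by
    intro ξ hξ η
    have hexp := regularPart_expand hM hb hξ
    have h := congrArg (fun f => classInner (pRegularPart p f) (η : H → ℂ)) hexp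
    have hlin : ∀ (c : b → ℂ), pRegularPart p (∑ ζ : b, c ζ • ((ζ : IrrCharacter H) : H → ℂ)) =
        ∑ ζ : b, c ζ • pRegularPart p ((ζ : IrrCharacter H) : H → ℂ) := fun c => by
      funext g
      simp only [pRegularPart_apply, Finset.sum_apply, Pi.smul_apply, smul_eq_mul]
      split_ifs <;> simp
    have hidem : pRegularPart p (pRegularPart p (ξ : H → ℂ)) = pRegularPart p (ξ : H → ℂ) := by
      funext g
      simp only [pRegularPart_apply]
      split_ifs <;> rfl
    simp only [hlin, hidem, classInner_sum_left, classInner_smul_left,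
      classInner_regularPart_scaled hM hmin hn hξ] at h
    rw [Finset.sum_congr rfl fun (ζ : b) _ => by rw [classInner_regularPart_scaled hM hmin hn ζ.2]] at h
    rw [← Finset.sum_subtype (memFinset b) (fun x => mem_memFinset)
      (fun ζ => (scaled p (degExp p ξ₀) ξ ζ : ℂ) / (p : ℂ) ^ n * ((scaled p (degExp p ξ₀) ζ η : ℂ) / (p : ℂ) ^ n))] at h
    have hpn : (p : ℂ) ^ n ≠ 0 := pow_ne_zero _ (Nat.cast_ne_zero.2 hM.1.ne_zero)
    have h2 : ((∑ ζ ∈ memFinset b, S ξ ζ * S ζ η : ℤ) : ℂ) = ((((p ^ n : ℕ) : ℤ) * S ξ η : ℤ) : ℂ) := by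
      push_cast
      rw [show (p : ℂ) ^ n * (S ξ η : ℂ) = (p : ℂ) ^ n * (p : ℂ) ^ n * ((S ξ η : ℂ) / (p : ℂ) ^ n) by field_simp,
        h, Finset.mul_sum]
      exact Finset.sum_congr rfl fun ζ _ => by simp only [hS]; field_simp
    exact_mod_cast h2
  have htrace : ∑ ζ ∈ memFinset b, S ζ ζ = ((p ^ n : ℕ) : ℤ) * blockRank p b := by
    have h := blockRank_eq_trace hM hb
    rw [← Finset.sum_subtype (memFinset b) (fun x => mem_memFinset)
      (fun χ : IrrCharacter H => classInner (pRegularPart p (χ : H → ℂ)) (χ : H → ℂ)),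
      Finset.sum_congr rfl fun ζ hζ => classInner_regularPart_scaled hM hmin hn (mem_memFinset.1 hζ) ζ,
      ← Finset.sum_div, eq_div_iff (pow_ne_zero _ (Nat.cast_ne_zero.2 hM.1.ne_zero))] at h
    have h2 : ((∑ ζ ∈ memFinset b, S ζ ζ : ℤ) : ℂ) = ((((p ^ n : ℕ) : ℤ) * blockRank p b : ℤ) : ℂ) := by
      push_cast
      rw [← h, mul_comm]
    exact_mod_cast h2
  have hlt : ∀ ζ ∈ memFinset b, S ζ ζ < ((p ^ n : ℕ) : ℤ) := by
    intro ζ hζ
    have hζ' := mem_memFinset.1 hζ
    obtain ⟨-, hle, heq⟩ := regInt_self_bounds (p := p) hM.1 ζ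
    have hs := pow_mul_scaled hM hmin hζ' ζ
    rw [hn] at hle heq
    have hne : regInt p (ζ : H → ℂ) (ζ : H → ℂ) ≠ (p : ℤ) ^ (degExp p ξ₀ + n) := fun h => by
      have hd := heq h
      obtain ⟨ha, hb'⟩ := (height_bounds hM hb).2 ζ hζ'
      rw [blockHeight_eq he₁] at ha hb'
      by_cases h2 : 2 ≤ blockDefect p b
      · have := hb' h2
        have := hmin₁ ζ hζ'
        have := hmin ξ₁ h₁
        have := hmin₁ ξ₀ h₀
        omega
      have h4 := ha (by omega)
      have := hmin₁ ζ hζ'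
      have := hmin ξ₁ h₁
      have := hmin₁ ξ₀ h₀
      omega
    have hlt2 : (p : ℤ) ^ degExp p ξ₀ * S ζ ζ < (p : ℤ) ^ degExp p ξ₀ * ((p ^ n : ℕ) : ℤ) := by
      push_cast
      rw [hS, hs, ← pow_add]
      exact lt_of_le_of_ne hle hne
    exact lt_of_mul_lt_mul_left hlt2 (pow_nonneg (Int.natCast_nonneg p) _)
  obtain ⟨w, z, hwz⟩ : IsCoprime (S ξ₀ ξ₀) ((p ^ n : ℕ) : ℤ) := by
    push_cast
    exact IsCoprime.pow_right ((Nat.prime_iff_prime_int.1 hM.1).coprime_iff_not_dvd.2 hunit).symm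
  have hF : Form (fun x z : memFinset b => S x.1 z.1) Finset.univ (p ^ n) (blockRank p b) := by
    refine ⟨⟨p, n, hM.1, rfl⟩, fun x z => hsym _ _, fun x y => ?_, ?_, fun i _ => hlt i.1 i.2, ?_⟩
    · rw [Finset.sum_coe_sort (memFinset b) fun ζ => S x.1 ζ * S ζ y.1]
      exact hproj _ (mem_memFinset.1 x.2) _
    · rw [Finset.sum_coe_sort (memFinset b) fun ζ => S ζ ζ]
      exact htrace
    · refine ⟨w, fun x => S x.1 ξ₀, fun x x' => ?_⟩
      have h := hminor x.1 (mem_memFinset.1 x.2) x'.1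
      rw [hsym ξ₀ x'.1] at h
      have e' : S x.1 x'.1 - w * S x.1 ξ₀ * S x'.1 ξ₀ =
          w * (S x.1 x'.1 * S ξ₀ ξ₀ - S x.1 ξ₀ * S x'.1 ξ₀) + S x.1 x'.1 * (z * (p ^ n : ℕ)) := by
        have : z * ((p ^ n : ℕ) : ℤ) = 1 - w * S ξ₀ ξ₀ := by linarith
        rw [this]; ring
      show ((p ^ n : ℕ) : ℤ) ∣ S x.1 x'.1 - _
      rw [e']
      exact dvd_add (h.mul_left _) (dvd_mul_of_dvd_right (dvd_mul_left _ _) _)
  have hval : ∑ x : memFinset b, v x.1 * pairing (fun x z : memFinset b => S x.1 z.1) (fun y => v y.1) x =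
      intForm (memFinset b) S v v := by
    rw [intForm, ← Finset.sum_coe_sort (memFinset b)]
    refine Finset.sum_congr rfl fun x _ => ?_
    rw [pairing, Finset.mul_sum, ← Finset.sum_coe_sort (memFinset b)]
    exact Finset.sum_congr rfl fun y _ => by ring
  by_cases h0 : intForm (memFinset b) S v v = 0
  · exact Or.inl h0
  · right
    rw [← hval] at h0 ⊢
    exact hF.value_ge (by omega) (fun y => v y.1) h0

end CfsgLib.BrauerFeit
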